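import Mathlib

/-!
# Abstract lemmas for the end of part 1 of S2539 (helper249)

* `relIndex_sup_dvd` : `|A C : A B|` divides `|C : B|`;
* `exists_conj_le` : Sylow's theorem for a maximal `p`-subgroup `P` of `N ≤ G`;
* `frattini` : `E ≤ N ≤ F ≤ N(E)`, `P` a maximal `p`-subgroup of `N`: `F = E N_F(P ∩ E)`.
-/

set_option autoImplicit false

namespace Cfsg.Agent.H249.OT.Abs

variable {G : Type*} [Group G]


theorem mem_map_conj {g x : G} {A : Subgroup G} :
    x ∈ A.map (MulAut.conj g).toMonoidHom ↔ g⁻¹ * x * g ∈ A := by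
  constructor
  · rintro ⟨y, hy, rfl⟩
    show g⁻¹ * (g * y * g⁻¹) * g ∈ A
    have e : g⁻¹ * (g * y * g⁻¹) * g = y := by group
    rwa [e]
  · intro h
    refine ⟨_, h, ?_⟩
    show g * (g⁻¹ * x * g) * g⁻¹ = x
    group

theorem map_conj_of_norm {g : G} {A : Subgroup G} (h : g ∈ Subgroup.normalizer (A : Set G)) :
    A.map (MulAut.conj g).toMonoidHom = A := by
  ext x
  rw [mem_map_conj]
  have h1 := Subgroup.mem_normalizer_iff.1 h (g⁻¹ * x * g)
  rw [h1]
  have e : g * (g⁻¹ * x * g) * g⁻¹ = x := by group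
  rw [e]

theorem norm_of_map_conj {g : G} {A : Subgroup G} (h : A.map (MulAut.conj g).toMonoidHom = A) :
    g ∈ Subgroup.normalizer (A : Set G) := by
  rw [Subgroup.mem_normalizer_iff]
  intro x
  constructor
  · intro hx
    rw [← h]
    exact ⟨x, hx, rfl⟩
  · intro hx
    rw [← h, mem_map_conj] at hx
    have e : g⁻¹ * (g * x * g⁻¹) * g = x := by group
    rwa [e] at hx

theorem map_conj_mul (g h : G) (A : Subgroup G) :
    A.map (MulAut.conj (g * h)).toMonoidHom = (A.map (MulAut.conj h).toMonoidHom).map (MulAut.conj g).toMonoidHom := by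
  ext x
  rw [mem_map_conj, mem_map_conj, mem_map_conj]
  have e : (g * h)⁻¹ * x * (g * h) = h⁻¹ * (g⁻¹ * x * g) * h := by group
  rw [e]

theorem map_conj_one (A : Subgroup G) : A.map (MulAut.conj (1 : G)).toMonoidHom = A := by
  ext x
  rw [mem_map_conj]
  simp

theorem norm_sup {A B C : Subgroup G} (hA : C ≤ Subgroup.normalizer (A : Set G))
    (hB : C ≤ Subgroup.normalizer (B : Set G)) : C ≤ Subgroup.normalizer ((A ⊔ B : Subgroup G) : Set G) := by
  intro c hc
  apply norm_of_map_conj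
  rw [Subgroup.map_sup, map_conj_of_norm (hA hc), map_conj_of_norm (hB hc)]

theorem relIndex_sup_of_norm {A C : Subgroup G} (hC : C ≤ Subgroup.normalizer (A : Set G)) :
    A.relIndex (A ⊔ C) = A.relIndex C := by
  set M : Subgroup G := Subgroup.normalizer (A : Set G) with hM
  have hAM : A ≤ M := Subgroup.le_normalizer
  have : (A.subgroupOf M).Normal := Subgroup.normal_in_normalizer
  have h1 := Subgroup.relIndex_sup_left (C.subgroupOf M) (A.subgroupOf M)
  rw [← Subgroup.subgroupOf_sup hAM hC, Subgroup.relIndex_subgroupOf (sup_le hAM hC),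
    Subgroup.relIndex_subgroupOf hC] at h1
  exact h1

/-- `|(A ⊔ C) : (A ⊔ B)|` divides `|C : B|` for `B ≤ C`, `C` normalising `A` and `B`. -/
theorem relIndex_sup_dvd {A B C : Subgroup G} (hBC : B ≤ C) (hA : C ≤ Subgroup.normalizer (A : Set G))
    (hB : C ≤ Subgroup.normalizer (B : Set G)) : (A ⊔ B).relIndex (A ⊔ C) ∣ B.relIndex C := by
  have h1 : (A ⊔ B).relIndex (A ⊔ C) = (A ⊔ B).relIndex C := by
    have e : A ⊔ C = (A ⊔ B) ⊔ C := by rw [sup_assoc, sup_eq_right.2 hBC]
    rw [e]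
    exact relIndex_sup_of_norm (norm_sup hA hB)
  rw [h1, ← Subgroup.inf_relIndex_right (A ⊔ B) C]
  exact Subgroup.relIndex_dvd_of_le_left C (le_inf le_sup_right hBC)

variable [Finite G] {p : ℕ} [Fact p.Prime]

theorem exists_conj_le {N P : Subgroup G} (hPN : P ≤ N) (hPp : IsPGroup p P)
    (hmax : ∀ P' : Subgroup G, IsPGroup p P' → P ≤ P' → P' ≤ N → P' = P) {Q : Subgroup G} (hQN : Q ≤ N)
    (hQ : IsPGroup p Q) : ∃ n ∈ N, Q ≤ P.map (MulAut.conj n).toMonoidHom := by
  let PS : Sylow p ↥N :=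
    { toSubgroup := P.subgroupOf N
      isPGroup' := hPp.comap_of_injective N.subtype Subtype.val_injective
      is_maximal' := fun {Q'} hQ' hle => by
        have h1 : Q'.map N.subtype = P := by
          refine hmax _ (hQ'.map _) ?_ (Subgroup.map_subtype_le _)
          intro x hx
          exact ⟨⟨x, hPN hx⟩, hle hx, rfl⟩
        rw [← h1]
        exact (Subgroup.comap_map_eq_self_of_injective N.subtype_injective Q').symm }
  obtain ⟨S, hS⟩ := (hQ.comap_of_injective N.subtype Subtype.val_injective : IsPGroup p ↥(Q.subgroupOf N)).exists_le_sylow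
  obtain ⟨n, hn⟩ := MulAction.exists_smul_eq ↥N PS S
  refine ⟨n, n.2, fun x hx => ?_⟩
  have h1 : (⟨x, hQN hx⟩ : ↥N) ∈ S := hS hx
  rw [← hn, ← SetLike.mem_coe, Sylow.coe_smul] at h1
  obtain ⟨y, hy, hyx⟩ := Set.mem_smul_set.1 h1
  refine ⟨y, hy, ?_⟩
  have h2 := congrArg (Subtype.val : ↥N → G) hyx
  exact h2

theorem eq_of_le_conj {P Q : Subgroup G} {n : G} (h : P ≤ Q)
    (hQ : Q ≤ P.map (MulAut.conj n).toMonoidHom) : Q = P := by
  symm
  apply Subgroup.eq_of_le_of_card_ge h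
  calc Nat.card Q ≤ Nat.card (P.map (MulAut.conj n).toMonoidHom) := Subgroup.card_le_of_le hQ
    _ = Nat.card P := Subgroup.card_map_of_injective (MulAut.conj n).injective

theorem frattini {N E F P : Subgroup G} (hEN : E ≤ N) (hNF : N ≤ F)
    (hEF : F ≤ Subgroup.normalizer (E : Set G)) (hPN : P ≤ N) (hPp : IsPGroup p P)
    (hmax : ∀ P' : Subgroup G, IsPGroup p P' → P ≤ P' → P' ≤ N → P' = P) {f : G} (hf : f ∈ F) :
    ∃ e ∈ E, e * f ∈ Subgroup.normalizer ((P ⊓ E : Subgroup G) : Set G) := by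
  have hconj : ∀ n ∈ F, (P.map (MulAut.conj n).toMonoidHom) ⊓ E = (P ⊓ E).map (MulAut.conj n).toMonoidHom := by
    intro n hn
    rw [Subgroup.map_inf _ _ _ (MulAut.conj n).injective, map_conj_of_norm (hEF hn)]
  have hmaxE : ∀ P' : Subgroup G, IsPGroup p P' → P ⊓ E ≤ P' → P' ≤ E → P' = P ⊓ E := by
    intro P' hP' h1 h2
    obtain ⟨n, hn, h3⟩ := exists_conj_le hPN hPp hmax (h2.trans hEN) hP'
    refine eq_of_le_conj (n := n) h1 ?_
    rw [← hconj n (hNF hn)]
    exact le_inf h3 h2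
  have hPE : IsPGroup p ↥(P ⊓ E) := hPp.to_le inf_le_left
  obtain ⟨e, he, h1⟩ := exists_conj_le (inf_le_right : P ⊓ E ≤ E) hPE hmaxE
    (Q := (P ⊓ E).map (MulAut.conj f).toMonoidHom) (by
      rw [← hconj f hf]; exact inf_le_right) (hPE.map _)
  refine ⟨e⁻¹, inv_mem he, norm_of_map_conj ?_⟩
  have h2 : (P ⊓ E).map (MulAut.conj f).toMonoidHom = (P ⊓ E).map (MulAut.conj e).toMonoidHom := by
    apply Subgroup.eq_of_le_of_card_ge h1
    rw [Subgroup.card_map_of_injective (MulAut.conj e).injective,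
      Subgroup.card_map_of_injective (MulAut.conj f).injective]
  rw [map_conj_mul, h2, ← map_conj_mul, inv_mul_cancel, map_conj_one]

end Cfsg.Agent.H249.OT.Abs
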