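import Cfsg.Agent.H927.SzLong
import Cfsg.Agent.H274.OT.BT
import Cfsg.Agent.S1027
import Cfsg.Agent.S1030

/-!
# The graph of long root subgroups in an overgroup of the torus (S2539, part 1) (helper249)

`F` a subgroup of `D.group K` containing `T = D.diagonalSubgroup K`, `r` a long root with `X_r ≤ F`.

* `Adj F A B` : `A, B ≤ F` are opposite; `Con F` : its reflexive transitive closure; `St` : the stabiliser of a
  component;
* `NN` : the kernel of `F` on the components with at least two vertices; `lr_le_NN` : the long root subgroups `A ≤ F`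
  with an opposite in `F` lie in `NN`;
* `con_conj` : the component of `X_r` consists of conjugates of `X_r` under `D_F`;
* `EE` : the normal closure of `X_r` in `F`; `EE_le_MF` : it is contained in `M_F`.
-/

set_option autoImplicit false

namespace Cfsg.Agent.H249.OT

open Cfsg.Lie Cfsg.Agent.ChevalleyStructure Cfsg.Agent.ChevalleyStructure.RootCombGood
  Cfsg.Agent.ChevalleyStructure.RootWord Cfsg.Agent.ChevalleyStructure.Elts
  Cfsg.Agent.ChevalleyStructure.BruhatSplit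
  Cfsg.Agent.H86.Lev Cfsg.Agent.H86.Graded Cfsg.Agent.H86.Par
  Cfsg.Agent.H927.Sz
open Cfsg.Agent.H412.OT (SF DF MF MinBad Hyp)

universe u

variable {D : ChevalleyDatum} {K : Type u} [Field K] {F : Subgroup (GL D.Idx K)}

/-- adjacent vertices in `F` : opposite long root subgroups -/
def Adj (F A B : Subgroup (GL D.Idx K)) : Prop := A ≤ F ∧ B ≤ F ∧ Opp A B

theorem Adj.symm (hD : InList D) {A B : Subgroup (GL D.Idx K)} (h : Adj F A B) : Adj F B A :=
  ⟨h.2.1, h.1, h.2.2.symm hD⟩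

theorem Adj.conj (hFG : F ≤ D.group K) {A B : Subgroup (GL D.Idx K)} (h : Adj F A B) {g : GL D.Idx K} (hg : g ∈ F) :
    Adj F (cj g A) (cj g B) := ⟨cj_le_of_mem hg h.1, cj_le_of_mem hg h.2.1, h.2.2.cj (hFG hg)⟩

/-- connected vertices -/
def Con (F : Subgroup (GL D.Idx K)) : Subgroup (GL D.Idx K) → Subgroup (GL D.Idx K) → Prop :=
  Relation.ReflTransGen (Adj F)

theorem Con.refl (A : Subgroup (GL D.Idx K)) : Con F A A := Relation.ReflTransGen.refl

theorem Con.trans {A B C : Subgroup (GL D.Idx K)} (h : Con F A B) (h' : Con F B C) : Con F A C :=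
  Relation.ReflTransGen.trans h h'

theorem Adj.con {A B : Subgroup (GL D.Idx K)} (h : Adj F A B) : Con F A B := Relation.ReflTransGen.single h

theorem Con.symm (hD : InList D) {A B : Subgroup (GL D.Idx K)} (h : Con F A B) : Con F B A := by
  induction h with
  | refl => exact Con.refl _
  | tail _ h2 ih => exact (Adj.con (h2.symm hD)).trans ih

theorem Con.conj (hFG : F ≤ D.group K) {A B : Subgroup (GL D.Idx K)} (h : Con F A B) {g : GL D.Idx K} (hg : g ∈ F) :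
    Con F (cj g A) (cj g B) := by
  induction h with
  | refl => exact Con.refl _
  | tail _ h2 ih => exact ih.trans (Adj.con (h2.conj hFG hg))

/-- the stabiliser of the component of `A` -/
def St (hD : InList D) (hFG : F ≤ D.group K) (A : Subgroup (GL D.Idx K)) : Subgroup (GL D.Idx K) where
  carrier := {g | g ∈ F ∧ Con F A (cj g A)}
  one_mem' := ⟨one_mem F, by rw [cj_one]; exact Con.refl _⟩
  mul_mem' := fun {a b} ha hb => ⟨mul_mem ha.1 hb.1, by
    rw [cj_mul]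
    exact ha.2.trans (Con.conj hFG hb.2 ha.1)⟩
  inv_mem' := fun {a} ha => ⟨inv_mem ha.1, by
    have := Con.conj hFG (Con.symm hD ha.2) (inv_mem ha.1)
    rwa [cj_inv_cj] at this⟩

theorem mem_St (hD : InList D) (hFG : F ≤ D.group K) {A : Subgroup (GL D.Idx K)} {g : GL D.Idx K} :
    g ∈ St hD hFG A ↔ g ∈ F ∧ Con F A (cj g A) := Iff.rfl

/-- `h_s` is multiplicative -/
theorem hG_mul (hD : InList D) {s : ℕ} (hs : s < D.nroots) (c c' : Kˣ) :
    hG hD s ((c * c' : Kˣ) : K) = hG hD s (c : K) * hG hD s (c' : K) := by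
  apply Units.ext
  rw [hG_entry hD hs (c * c'), Units.val_mul (hG hD s (c : K)), hG_entry hD hs c, hG_entry hD hs c',
    Matrix.diagonal_mul_diagonal]
  congr 1
  funext j
  rw [mul_zpow, Units.val_mul]

theorem hG_one (hD : InList D) {s : ℕ} (hs : s < D.nroots) : hG hD s ((1 : Kˣ) : K) = 1 := by
  have h := hG_mul hD hs (1 : Kˣ) 1
  rw [mul_one] at h
  exact (mul_eq_left.1 h.symm)

theorem hG_inv (hD : InList D) {s : ℕ} (hs : s < D.nroots) (c : Kˣ) :
    hG hD s ((c⁻¹ : Kˣ) : K) = (hG hD s (c : K))⁻¹ := by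
  rw [eq_inv_iff_mul_eq_one, ← hG_mul hD hs, inv_mul_cancel, hG_one hD hs]

/-- the kernel of `F` on the components with at least two vertices -/
def NN (hD : InList D) (hFG : F ≤ D.group K) : Subgroup (GL D.Idx K) where
  carrier := {x | x ∈ F ∧ ∀ A B : Subgroup (GL D.Idx K), Adj F A B → Con F A (cj x A)}
  one_mem' := ⟨one_mem F, fun A B _ => by rw [cj_one]; exact Con.refl _⟩
  mul_mem' := fun {a b} ha hb => ⟨mul_mem ha.1 hb.1, fun A B h => by
    rw [cj_mul]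
    exact (hb.2 A B h).trans (ha.2 _ _ (h.conj hFG hb.1))⟩
  inv_mem' := fun {a} ha => ⟨inv_mem ha.1, fun A B h => by
    have h1 := ha.2 _ _ (h.conj hFG (inv_mem ha.1))
    rw [cj_cj_inv] at h1
    exact h1.symm hD⟩

theorem mem_NN (hD : InList D) (hFG : F ≤ D.group K) {x : GL D.Idx K} :
    x ∈ NN hD hFG ↔ x ∈ F ∧ ∀ A B : Subgroup (GL D.Idx K), Adj F A B → Con F A (cj x A) := Iff.rfl

theorem le_norm_NN (hD : InList D) (hFG : F ≤ D.group K) :
    F ≤ Subgroup.normalizer (NN hD hFG : Set (GL D.Idx K)) := by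
  have key : ∀ f ∈ F, ∀ x ∈ NN hD hFG, f * x * f⁻¹ ∈ NN hD hFG := by
    intro f hf x hx
    refine ⟨mul_mem (mul_mem hf hx.1) (inv_mem hf), fun A B h => ?_⟩
    have h1 := (hx.2 _ _ (h.conj hFG (inv_mem hf))).conj hFG hf
    rw [cj_cj_inv, ← cj_mul, ← cj_mul] at h1
    exact h1
  intro f hf
  rw [Subgroup.mem_normalizer_iff]
  intro x
  refine ⟨key f hf x, fun h1 => ?_⟩
  have h2 := key f⁻¹ (inv_mem hf) _ h1
  have e : f⁻¹ * (f * x * f⁻¹) * f⁻¹⁻¹ = x := by group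
  rwa [e] at h2

theorem torus_mem_NN [Finite K] (hD : InList D) (hFG : F ≤ D.group K) (hK : 13 ≤ Nat.card K) {g : GL D.Idx K}
    (hg : g ∈ D.group K) (h1 : cj g (XT D K) ≤ F) (h2 : cj g (XB D K) ≤ F) (c : Kˣ) :
    g * hG hD (top D) (c : K) * g⁻¹ ∈ NN hD hFG := by
  have hF : ∀ c : Kˣ, g * hG hD (top D) (c : K) * g⁻¹ ∈ F := fun c => (sup_le h1 h2) (hG_mem_sup hD _ _)
  refine ⟨hF c, fun A B h => ?_⟩
  let S : Subgroup Kˣ :=
    { carrier := {c | g * hG hD (top D) (c : K) * g⁻¹ ∈ St hD hFG A}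
      one_mem' := by
        show g * hG hD (top D) ((1 : Kˣ) : K) * g⁻¹ ∈ St hD hFG A
        rw [hG_one hD (top_lt hD), mul_one, mul_inv_cancel]
        exact one_mem _
      mul_mem' := fun {a b} ha hb => by
        show g * hG hD (top D) ((a * b : Kˣ) : K) * g⁻¹ ∈ St hD hFG A
        have e : g * hG hD (top D) ((a * b : Kˣ) : K) * g⁻¹ =
            (g * hG hD (top D) (a : K) * g⁻¹) * (g * hG hD (top D) (b : K) * g⁻¹) := by
          rw [hG_mul hD (top_lt hD)]; group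
        rw [e]
        exact mul_mem ha hb
      inv_mem' := fun {a} ha => by
        show g * hG hD (top D) ((a⁻¹ : Kˣ) : K) * g⁻¹ ∈ St hD hFG A
        have e : g * hG hD (top D) ((a⁻¹ : Kˣ) : K) * g⁻¹ = (g * hG hD (top D) (a : K) * g⁻¹)⁻¹ := by
          rw [hG_inv hD (top_lt hD)]; group
        rw [e]
        exact inv_mem ha }
  have hS : S = ⊤ := torus_stab hD (by omega) h.2.2 (isLong_top hD) hg S fun c hc =>
    ⟨hF c, h.con.trans (Adj.con ⟨h.2.1, cj_le_of_mem (hF c) h.1, hc.symm hD⟩)⟩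
  have h3 : c ∈ S := by rw [hS]; trivial
  exact h3.2

/-- **Claim 1** -/
theorem lr_le_NN [Finite K] (hD : InList D) (hFG : F ≤ D.group K) (hK : 13 ≤ Nat.card K)
    {A B : Subgroup (GL D.Idx K)} (h : Adj F A B) : A ≤ NN hD hFG := by
  obtain ⟨hA, hB, g, hg, rfl, rfl⟩ := h
  obtain ⟨c, hc0, -, hc2⟩ := exists_c K (by omega)
  exact le_of_torus hD hc0 hc2 (hA.trans (le_norm_NN hD hFG)) (torus_mem_NN hD hFG hK hg hA hB (Units.mk0 c hc0))

/-! ### the groups `Q D K r` are `p`-groups -/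

theorem Q_top_le (hD : InList D) : Q D K (top D) ≤ D.posUnipotent K := by
  rw [Q_le_iff hD]
  intro r hr h t
  rcases RootWord.pos_or_neg (good hD) hr with h1 | h1
  · exact xG_mem_posUnipotent hD h1 t
  · have := neg_level hD h1
    omega

theorem isPGroup_pos [Finite K] (hD : InList D) (p : ℕ) [Fact p.Prime] [CharP K p] :
    IsPGroup p ↥(D.posUnipotent K) := by
  have : Fintype K := Fintype.ofFinite K
  obtain ⟨n, -, hn⟩ := FiniteField.card K p
  refine IsPGroup.of_card (n := n * (D.nroots / 2)) ?_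
  rw [Cfsg.Agent.S1027.result D hD, hn, pow_mul]

theorem isPGroup_Q [Finite K] (hD : InList D) (p : ℕ) [Fact p.Prime] [CharP K p] {r : ℕ} (hr : IsLong D r) :
    IsPGroup p ↥(Q D K r) := by
  obtain ⟨n, hn, w, hw, hact, e, -⟩ := hr.exists_n hD K
  have h1 := cj_Q (K := K) hD hw hact hr.1
  rw [e] at h1
  have h2 : Q D K r = cj n⁻¹ (Q D K (top D)) := by rw [← h1, cj_inv_cj]
  rw [h2]
  exact IsPGroup_cj ((isPGroup_pos hD p).to_le (Q_top_le hD)) _

theorem Q_le_group' (hD : InList D) (r : ℕ) : Q D K r ≤ D.group K := by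
  rw [Q_le_iff hD]
  intro s _ _ t
  exact xG_mem_group hD s t

/-! ### the swapping element -/

theorem sl_conj (b : K) :
    (SL2Hom.up (1 : K) * SL2Hom.lo (-1) * SL2Hom.up 1) * SL2Hom.up b =
      SL2Hom.lo (-b) * (SL2Hom.up 1 * SL2Hom.lo (-1) * SL2Hom.up 1) := by
  have h : (!![1, (1 : K); 0, 1] * !![1, 0; -1, 1] * !![1, 1; 0, 1]) * !![1, b; 0, 1] =
      !![1, 0; -b, 1] * (!![1, 1; 0, 1] * !![1, 0; -1, 1] * !![1, (1 : K); 0, 1]) := by
    ext i j
    fin_cases i <;> fin_cases j <;> simp [Matrix.mul_apply, Fin.sum_univ_two]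
  exact Subtype.ext h

/-- an element of `⟨X_r, X_{-r}⟩` swapping `X_r` and `X_{-r}` -/
theorem exists_swap_mem (hD : InList D) {r : ℕ} (hr : r < D.nroots) :
    ∃ n ∈ D.rootSubgroup K r ⊔ D.rootSubgroup K (D.neg r),
      cj n (D.rootSubgroup K r) = D.rootSubgroup K (D.neg r) := by
  obtain ⟨φ, hr1, hφ⟩ := Cfsg.Agent.S1030.result (F := K) D hD r hr
  have hup : ∀ t : K, φ (SL2Hom.up t) = xG hD r t := fun t => Units.ext ((hφ (SL2Hom.up t) t).1 rfl)
  have hlo : ∀ t : K, φ (SL2Hom.lo t) = xG hD (D.neg r) t := fun t => Units.ext ((hφ (SL2Hom.lo t) t).2 rfl)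
  set w : Matrix.SpecialLinearGroup (Fin 2) K := SL2Hom.up 1 * SL2Hom.lo (-1) * SL2Hom.up 1 with hw
  have key : ∀ b : K, φ w * xG hD r b * (φ w)⁻¹ = xG hD (D.neg r) (-b) := by
    intro b
    rw [mul_inv_eq_iff_eq_mul, ← hup, ← hlo, ← map_mul, ← map_mul, hw, sl_conj]
  refine ⟨φ w, ?_, ?_⟩
  · rw [← hr1]; exact ⟨w, rfl⟩
  · apply le_antisymm
    · rintro x ⟨y, hy, rfl⟩
      obtain ⟨b, rfl⟩ := (mem_rootSubgroup_iff hD _ _).1 hy
      show φ w * xG hD r b * (φ w)⁻¹ ∈ _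
      rw [key]
      exact xG_mem_rootSubgroup hD _ _
    · intro x hx
      obtain ⟨b, rfl⟩ := (mem_rootSubgroup_iff hD _ _).1 hx
      have := key (-b)
      rw [_root_.neg_neg] at this
      rw [← this]
      exact conj_mem_cj (xG_mem_rootSubgroup hD _ _)

/-! ### Claim 2 -/

section Six

variable [Finite K] {p : ℕ} [Fact p.Prime] [CharP K p]

/-- `T`-invariant `p`-subgroups of `F` lie in `D_F` -/
theorem inv_le_DF (hD : InList D) (hK : 13 ≤ Nat.card K) (hFG : F ≤ D.group K) {V : Subgroup (GL D.Idx K)}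
    (hV : V ≤ F) (hVp : IsPGroup p ↥V) (hT : D.diagonalSubgroup K ≤ Subgroup.normalizer (V : Set (GL D.Idx K))) :
    V ≤ DF D K F := by
  rw [Cfsg.Agent.H460.OT.inv_pgroup (p := p) hD hK (hV.trans hFG) hVp hT]
  exact iSup₂_le fun r hr => Cfsg.Agent.H412.OT.rootSubgroup_le_DF ⟨hr.1, hr.2.trans hV⟩

omit [Finite K] in
theorem tor_norm_inf_Q (hD : InList D) (hTF : D.diagonalSubgroup K ≤ F) (r : ℕ) :
    D.diagonalSubgroup K ≤ Subgroup.normalizer ((F ⊓ Q D K r : Subgroup (GL D.Idx K)) : Set (GL D.Idx K)) := by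
  intro t ht
  have key : ∀ t ∈ D.diagonalSubgroup K, ∀ x ∈ F ⊓ Q D K r, t * x * t⁻¹ ∈ F ⊓ Q D K r := fun t ht x hx =>
    ⟨F.mul_mem (F.mul_mem (hTF ht) hx.1) (F.inv_mem (hTF ht)), diag_conj_Q hD ht x hx.2⟩
  rw [Subgroup.mem_normalizer_iff]
  intro x
  refine ⟨fun hx => key t ht x hx, fun hx => ?_⟩
  have h1 := key t⁻¹ (inv_mem ht) _ hx
  have e : t⁻¹ * (t * x * t⁻¹) * t⁻¹⁻¹ = x := by group
  rwa [e] at h1

/-- **Claim 2** : the component of `X_r` consists of `D_F`-conjugates of `X_r` -/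
theorem con_conj (hD : InList D) (hK : 13 ≤ Nat.card K) (hTF : D.diagonalSubgroup K ≤ F) (hFG : F ≤ D.group K)
    {r : ℕ} (hr : IsLong D r) (hXr : D.rootSubgroup K r ≤ F) {A : Subgroup (GL D.Idx K)}
    (h : Con F (D.rootSubgroup K r) A) : ∃ d ∈ DF D K F, A = cj d (D.rootSubgroup K r) := by
  obtain ⟨c, hc0, hc1, hc2⟩ := exists_c K (by omega)
  obtain ⟨p, hpc⟩ := CharP.exists K
  have hpp : Fact p.Prime := ⟨CharP.char_is_prime K p⟩
  induction h with
  | refl => exact ⟨1, one_mem _, by rw [cj_one]⟩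
  | @tail B C _ h2 ih =>
    obtain ⟨d, hd, rfl⟩ := ih
    have hdF : d ∈ F := Cfsg.Agent.H412.OT.DF_le F hd
    have h3 := h2.conj hFG (inv_mem hdF)
    rw [cj_inv_cj] at h3
    obtain ⟨h4, v, hvF, hvQ, e⟩ := torus_moufang hD hc0 hc1 hc2 hTF hr hXr h3.2.1 h3.2.2
    obtain ⟨n, hn, en⟩ := exists_swap_mem (K := K) hD hr.1
    have hn' : n ∈ DF D K F :=
      (sup_le (Cfsg.Agent.H412.OT.rootSubgroup_le_DF ⟨hr.1, hXr⟩)
        (Cfsg.Agent.H412.OT.rootSubgroup_le_DF ⟨RootWord.neg_lt (good hD) hr.1, h4⟩)) hn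
    have hv : v ∈ DF D K F :=
      inv_le_DF (p := p) hD hK hFG (inf_le_left : F ⊓ Q D K r ≤ F)
        ((isPGroup_Q hD p hr).to_le inf_le_right) (tor_norm_inf_Q hD hTF r) ⟨hvF, hvQ⟩
    refine ⟨d * (v * n), mul_mem hd (mul_mem hv hn'), ?_⟩
    rw [cj_mul, cj_mul, en, ← e, cj_cj_inv]

end Six

/-! ### the normal closure of `X_r` in `F` -/

/-- the subgroup generated by the conjugates of `X_r` in `F` -/
def EE (F : Subgroup (GL D.Idx K)) (r : ℕ) : Subgroup (GL D.Idx K) :=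
  ⨆ f ∈ F, cj f (D.rootSubgroup K r)

theorem cj_le_EE {r : ℕ} {f : GL D.Idx K} (hf : f ∈ F) : cj f (D.rootSubgroup K r) ≤ EE F r :=
  le_iSup₂ (f := fun f (_ : f ∈ F) => cj f (D.rootSubgroup K r)) f hf

theorem root_le_EE {r : ℕ} : D.rootSubgroup K r ≤ EE F r := by
  have := cj_le_EE (F := F) (r := r) (one_mem F)
  rwa [cj_one] at this

theorem EE_le {r : ℕ} (h : D.rootSubgroup K r ≤ F) : EE F r ≤ F :=
  iSup₂_le fun _ hf => cj_le_of_mem hf h

theorem cj_EE_le {r : ℕ} {f : GL D.Idx K} (hf : f ∈ F) : cj f (EE F r) ≤ EE F r := by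
  rw [cj_le_iff]
  refine iSup₂_le fun g hg => ?_
  rw [← cj_le_iff, ← cj_mul]
  exact cj_le_EE (mul_mem hf hg)

theorem cj_EE {r : ℕ} {f : GL D.Idx K} (hf : f ∈ F) : cj f (EE F r) = EE F r := by
  refine le_antisymm (cj_EE_le hf) ?_
  have := cj_mono (g := f) (cj_EE_le (r := r) (inv_mem hf))
  rwa [cj_cj_inv] at this

theorem le_norm_EE (F : Subgroup (GL D.Idx K)) (r : ℕ) : F ≤ Subgroup.normalizer (EE F r : Set (GL D.Idx K)) :=
  fun _ hf => cj_eq_self_iff.1 (cj_EE hf)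

/-- **Claim 3** -/
theorem EE_le_MF [Fintype K] {p : ℕ} [Fact p.Prime] [CharP K p] (hH : Hyp K p D) (hF : MinBad D K F) {r : ℕ}
    (hr : IsLong D r) (hXr : D.rootSubgroup K r ≤ F) {B : Subgroup (GL D.Idx K)}
    (hB : Adj F (D.rootSubgroup K r) B) : EE F r ≤ MF D K F := by
  have hD : InList D := hH.inList
  have hK := Cfsg.Agent.H274.OT.card13 hH
  have h1 : EE F r ≤ NN hD hF.le :=
    iSup₂_le fun f hf => lr_le_NN hD hF.le hK (hB.conj hF.le hf)
  intro x hx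
  obtain ⟨hxF, hcon'⟩ := (mem_NN hD hF.le).1 (h1 hx)
  have hcon := hcon' _ _ hB
  obtain ⟨d, hd, e⟩ := con_conj hD hK hF.tor hF.le hr hXr hcon
  have hdF : d ∈ F := Cfsg.Agent.H412.OT.DF_le F hd
  have h2 : d⁻¹ * x ∈ MF D K F := by
    refine hF.root hH (r := r) ⟨hr.1, hXr⟩ ⟨F.mul_mem (F.inv_mem hdF) hxF, cj_eq_self_iff.1 ?_⟩
    rw [cj_mul, e, cj_inv_cj]
  have h3 := mul_mem (Cfsg.Agent.H412.OT.DF_le_MF F hd) h2
  rwa [mul_inv_cancel_left] at h3

end Cfsg.Agent.H249.OT
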