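import Cfsg.Agent.H249.OT.Graph
import Cfsg.Agent.H249.OT.Abs
import Cfsg.Agent.H460.OT.BruConc
import Cfsg.Agent.H927.SzPsl
import Cfsg.Agent.H650.OT.SFC
import Cfsg.Agent.H412.OT.Ind

/-!
# End of part 1 of S2539 (helper249)

`no_adj` : a least bad overgroup `F` of the torus contains no long root subgroup `X_r` with an opposite long root
subgroup in `F`.
-/

set_option autoImplicit false

namespace Cfsg.Agent.H249.OT

open Cfsg.Lie Cfsg.Agent.ChevalleyStructure Cfsg.Agent.ChevalleyStructure.RootCombGood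
  Cfsg.Agent.ChevalleyStructure.RootWord Cfsg.Agent.ChevalleyStructure.Elts
  Cfsg.Agent.ChevalleyStructure.BruhatSplit
  Cfsg.Agent.H86.Lev Cfsg.Agent.H86.Graded Cfsg.Agent.H86.Par
  Cfsg.Agent.H927.Sz
open Cfsg.Agent.H412.OT (SF DF MF MinBad Hyp GS)

universe u

variable {D : ChevalleyDatum} {K : Type u} [Field K] {F : Subgroup (GL D.Idx K)}

theorem norm_inf {G : Type*} [Group G] {A B C : Subgroup G} (hA : C ≤ Subgroup.normalizer (A : Set G))
    (hB : C ≤ Subgroup.normalizer (B : Set G)) : C ≤ Subgroup.normalizer ((A ⊓ B : Subgroup G) : Set G) := by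
  intro c hc
  apply Abs.norm_of_map_conj
  rw [Subgroup.map_inf _ _ _ (MulAut.conj c).injective, Abs.map_conj_of_norm (hA hc), Abs.map_conj_of_norm (hB hc)]

/-- **no adjacent long root subgroups** in a least bad overgroup of `T` -/
theorem no_adj [Fintype K] {p : ℕ} [Fact p.Prime] [CharP K p] (hH : Hyp K p D) (hF : MinBad D K F) {r : ℕ}
    (hr : IsLong D r) (hXr : D.rootSubgroup K r ≤ F) {B : Subgroup (GL D.Idx K)}
    (hB : Adj F (D.rootSubgroup K r) B) : False := by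
  have hD : InList D := hH.inList
  have hK := Cfsg.Agent.H274.OT.card13 hH
  have hfin : Finite (GL D.Idx K) := inferInstance
  obtain ⟨c, hc0, hc1, hc2⟩ := exists_c K (by omega)
  have hE1 := EE_le_MF hH hF hr hXr hB
  obtain ⟨hXn, -⟩ := torus_moufang hD hc0 hc1 hc2 hF.tor hr hXr hB.2.1 hB.2.2
  obtain ⟨n, hn, en⟩ := exists_swap_mem (K := K) hD hr.1
  have hnF : n ∈ F := (sup_le hXr hXn) hn
  have hE2 : ∀ f ∈ F, cj f (D.rootSubgroup K (D.neg r)) ≤ EE F r := by
    intro f hf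
    rw [← en, ← cj_mul]
    exact cj_le_EE (F.mul_mem hf hnF)
  have hEN : EE F r ≤ D.diagonalSubgroup K ⊔ DF D K F :=
    iSup₂_le fun f hf => le_sup_left.trans
      (Opp.le_of_index hD hK ((hr.opp hD K).cj (hF.le hf)) ((cj_le_EE hf).trans hE1) ((hE2 f hf).trans hE1)
        (Cfsg.Agent.H412.OT.MF_normal hH hF.le) (Cfsg.Agent.H412.OT.MF_index hH hF.tor hF.le))
  have hNF : D.diagonalSubgroup K ⊔ DF D K F ≤ F := sup_le hF.tor (Cfsg.Agent.H412.OT.DF_le F)
  obtain ⟨P, hPN, hPp, hTP, -, -, hX, hmax, -⟩ := Cfsg.Agent.H460.OT.GS_struct (p := p)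
    (Cfsg.Agent.H274.OT.mem7 hH.mem) hK hF.tor (Cfsg.Agent.H650.OT.SF_closed (p := p) hH hF.le)
  have hne : P ⊓ EE F r ≠ ⊥ := by
    intro h0
    rcases hX r ⟨hr.1, hXr⟩ with h1 | h1
    · apply Cfsg.Agent.H274.OT.root_ne_bot (K := K) hD hr.1
      rw [eq_bot_iff, ← h0]
      exact le_inf h1 root_le_EE
    · apply Cfsg.Agent.H274.OT.root_ne_bot (K := K) hD (RootWord.neg_lt (good hD) hr.1)
      rw [eq_bot_iff, ← h0]
      have h2 := hE2 1 (one_mem F)
      rw [cj_one] at h2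
      exact le_inf h1 h2
  have hloc := hF.loc hH (Q := P ⊓ EE F r) (inf_le_right.trans (EE_le hXr)) (hPp.to_le inf_le_left) hne
    (norm_inf hTP (hF.tor.trans (le_norm_EE F r)))
  have hle : F ≤ MF D K F := by
    intro f hf
    obtain ⟨e, he, h1⟩ := Abs.frattini hEN hNF (le_norm_EE F r) hPN hPp hmax hf
    have h2 : e * f ∈ MF D K F := hloc ⟨F.mul_mem (EE_le hXr he) hf, h1⟩
    have h3 := (MF D K F).mul_mem ((MF D K F).inv_mem (hE1 he)) h2
    rwa [inv_mul_cancel_left] at h3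
  exact lt_irrefl _ (lt_of_lt_of_le (hF.MF_lt hH) hle)

end Cfsg.Agent.H249.OT
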